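import Mathlib

/-!
# Orders of the eigenvalues (helper340)
-/

set_option autoImplicit false

namespace Cfsg.Agent.H340.RV

open Polynomial

section Ord

theorem dvd_of_modEq {a m j : ℕ} (h : a ^ j ≡ 1 [MOD m]) : orderOf ((a : ℕ) : ZMod m) ∣ j := by
  rw [orderOf_dvd_iff_pow_eq_one, ← Nat.cast_pow]
  have h1 := (ZMod.natCast_eq_natCast_iff _ _ _).2 h
  rwa [Nat.cast_one] at h1

theorem modEq_of_dvd {a m j : ℕ} (h : orderOf ((a : ℕ) : ZMod m) ∣ j) : a ^ j ≡ 1 [MOD m] := by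
  rw [orderOf_dvd_iff_pow_eq_one, ← Nat.cast_pow] at h
  rw [← ZMod.natCast_eq_natCast_iff, h, Nat.cast_one]

theorem modEq_orderOf (a m : ℕ) : a ^ orderOf ((a : ℕ) : ZMod m) ≡ 1 [MOD m] := modEq_of_dvd dvd_rfl

theorem exists_prime_pow {a ℓ : ℕ} (hℓ : ℓ.Prime) {m : ℕ} (hm0 : m ≠ 0) (hm : a.Coprime m)
    (h : ℓ ∣ orderOf ((a : ℕ) : ZMod m)) :
    ∃ r b, r.Prime ∧ 1 ≤ b ∧ r ^ b ∣ m ∧ ℓ ∣ orderOf ((a : ℕ) : ZMod (r ^ b)) := by
  induction m using Nat.recOnPosPrimePosCoprime with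
  | prime_pow p n hp hn => exact ⟨p, n, hp, hn, dvd_rfl, h⟩
  | zero => exact absurd rfl hm0
  | one =>
    exfalso
    have h1 : orderOf ((a : ℕ) : ZMod 1) ∣ 1 := dvd_of_modEq (Nat.modEq_one)
    exact hℓ.one_lt.ne' (Nat.dvd_one.1 (h.trans h1))
  | coprime x y hx hy hxy ihx ihy =>
    have h1 : orderOf ((a : ℕ) : ZMod (x * y)) ∣ orderOf ((a : ℕ) : ZMod x) * orderOf ((a : ℕ) : ZMod y) := by
      refine dvd_of_modEq ?_
      rw [← Nat.modEq_and_modEq_iff_modEq_mul hxy]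
      exact ⟨modEq_of_dvd (dvd_mul_right _ _), modEq_of_dvd (dvd_mul_left _ _)⟩
    rcases (hℓ.dvd_mul).1 (h.trans h1) with h2 | h2
    · obtain ⟨r, b, h3, h4, h5, h6⟩ := ihx (by omega) (hm.coprime_mul_right_right) h2
      exact ⟨r, b, h3, h4, h5.trans (dvd_mul_right _ _), h6⟩
    · obtain ⟨r, b, h3, h4, h5, h6⟩ := ihy (by omega) (hm.coprime_mul_left_right) h2
      exact ⟨r, b, h3, h4, h5.trans (dvd_mul_left _ _), h6⟩

theorem modEq_pow_prime_pow {r x : ℕ} (h : x ≡ 1 [MOD r]) (b : ℕ) : x ^ r ^ b ≡ 1 [MOD r ^ (b + 1)] := by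
  have h1 : ((r : ℕ) : ℤ) ∣ (x : ℤ) - 1 := by
    have h2 := (Nat.modEq_iff_dvd.1 h.symm)
    simpa using h2
  have h2 := dvd_sub_pow_of_dvd_sub (R := ℤ) (p := r) h1 b
  refine (Nat.modEq_iff_dvd.2 ?_).symm
  push_cast
  simpa using h2

theorem dvd_or_eq {a ℓ r b : ℕ} (hℓ : ℓ.Prime) (hr : r.Prime) (hb : 1 ≤ b)
    (h : ℓ ∣ orderOf ((a : ℕ) : ZMod (r ^ b))) : ℓ ∣ orderOf ((a : ℕ) : ZMod r) ∨ ℓ = r ∧ 2 ≤ b := by
  obtain ⟨c, rfl⟩ : ∃ c, b = c + 1 := ⟨b - 1, by omega⟩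
  have h1 : orderOf ((a : ℕ) : ZMod (r ^ (c + 1))) ∣ orderOf ((a : ℕ) : ZMod r) * r ^ c := by
    refine dvd_of_modEq ?_
    rw [pow_mul]
    exact modEq_pow_prime_pow (modEq_orderOf a r) c
  rcases (hℓ.dvd_mul).1 (h.trans h1) with h2 | h2
  · exact Or.inl h2
  · right
    refine ⟨(Nat.prime_dvd_prime_iff_eq hℓ hr).1 (hℓ.dvd_of_dvd_pow h2), ?_⟩
    rcases Nat.eq_zero_or_pos c with rfl | hc
    · rw [pow_zero] at h2
      exact absurd (Nat.dvd_one.1 h2) hℓ.one_lt.ne'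
    · omega

theorem orderOf_dvd_sub_one {a r : ℕ} (hr : r.Prime) (h : a.Coprime r) : orderOf ((a : ℕ) : ZMod r) ∣ r - 1 := by
  have _ : Fact r.Prime := ⟨hr⟩
  rw [orderOf_dvd_iff_pow_eq_one]
  refine ZMod.pow_card_sub_one_eq_one ?_
  rw [Ne, ZMod.natCast_eq_zero_iff]
  intro h1
  have h2 := Nat.dvd_gcd h1 dvd_rfl
  rw [h] at h2
  exact hr.one_lt.ne' (Nat.dvd_one.1 h2)

end Ord

section Deg

variable {F K : Type*} [Field F] [Finite F] [Field K] [Algebra F K]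

theorem natDegree_dvd_iff {f : F[X]} (hf : Irreducible f) {μ : Kˣ} (hμ : aeval (μ : K) f = 0) {j : ℕ} :
    f.natDegree ∣ j ↔ μ ^ Nat.card F ^ j = μ := by
  rw [hf.natDegree_dvd_iff_dvd_X_pow_card_pow_sub_X, ← hf.dvd_iff_aeval_eq_zero hμ, map_sub, map_pow, aeval_X,
    sub_eq_zero, ← Units.val_pow_eq_pow_val]
  exact ⟨fun h => Units.ext h, fun h => congrArg _ h⟩

theorem pow_eq_self_of_modEq {μ : Kˣ} {a : ℕ} (h : a ≡ 1 [MOD orderOf μ]) : μ ^ a = μ := by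
  conv_rhs => rw [← pow_one μ]
  exact pow_eq_pow_iff_modEq.2 h

theorem natDegree_mul_dvd {f : F[X]} (hf : Irreducible f) {μ : Kˣ} (hμ : aeval (μ : K) f = 0) {q0 n ℓ r : ℕ}
    (hq : Nat.card F = q0 ^ n) (hℓn : ℓ ∣ n) (hℓ : ℓ ∣ orderOf ((q0 : ℕ) : ZMod r)) (hr : r.Prime)
    (hc : q0.Coprime r) (ho : orderOf μ = r) : f.natDegree * ℓ ∣ r - 1 := by
  refine dvd_trans ?_ (orderOf_dvd_sub_one hr hc)
  obtain ⟨k, hk⟩ := hℓ
  obtain ⟨n', rfl⟩ := hℓn
  rw [hk, mul_comm]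
  refine mul_dvd_mul_left _ ((natDegree_dvd_iff hf hμ).2 (pow_eq_self_of_modEq ?_))
  rw [hq, ho, ← pow_mul, show ℓ * n' * k = ℓ * k * n' by ring, pow_mul, ← hk]
  simpa using (modEq_orderOf q0 r).pow n'

theorem natDegree_dvd_sub_one {f : F[X]} (hf : Irreducible f) {μ : Kˣ} (hμ : aeval (μ : K) f = 0) {q0 n r : ℕ}
    (hq : Nat.card F = q0 ^ n) (hrn : r ∣ n) (hr : r.Prime) (hc : q0.Coprime r) (ho : orderOf μ = r ^ 2) :
    f.natDegree ∣ r - 1 := by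
  refine (natDegree_dvd_iff hf hμ).2 (pow_eq_self_of_modEq ?_)
  obtain ⟨n', rfl⟩ := hrn
  have h1 : (q0 ^ n') ^ (r - 1) ≡ 1 [MOD r] := modEq_of_dvd (orderOf_dvd_sub_one hr (hc.pow_left n'))
  have h2 := modEq_pow_prime_pow h1 1
  rw [ho, hq]
  rw [← pow_mul, ← pow_mul, pow_one] at h2
  rwa [← pow_mul, show r * n' * (r - 1) = n' * ((r - 1) * r) by ring]

omit [Finite F] in
theorem root_map {p : ℕ} [Fact p.Prime] [CharP F p] {f : F[X]} {σ : F →+* F} {t : ℕ} (hσ : ∀ x, σ x = x ^ p ^ t)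
    {μ : K} (h : aeval μ f = 0) : aeval (μ ^ p ^ t) (f.map σ) = 0 := by
  have hK : CharP K p := charP_of_injective_algebraMap (algebraMap F K).injective p
  have h1 : (algebraMap F K).comp σ = (iterateFrobenius K p t).comp (algebraMap F K) := by
    ext x
    rw [RingHom.comp_apply, RingHom.comp_apply, hσ, map_pow, iterateFrobenius_def]
  rw [aeval_def, eval₂_map, h1, ← iterateFrobenius_def, ← hom_eval₂, ← aeval_def, h, map_zero]

theorem root_pow {p : ℕ} [Fact p.Prime] [CharP F p] {f : F[X]} {μ : K} (h : aeval μ f = 0) (j : ℕ) :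
    aeval (μ ^ Nat.card F ^ j) f = 0 := by
  have _ : Fintype F := Fintype.ofFinite F
  obtain ⟨s, _, hs⟩ := FiniteField.card F p
  have h1 := root_map (p := p) (σ := RingHom.id F) (t := s * j) (f := f) (fun x => by
    rw [pow_mul, ← hs, FiniteField.pow_card_pow]
    rfl) h
  rwa [pow_mul, ← hs, ← Nat.card_eq_fintype_card, Polynomial.map_id] at h1

/-- if the degree is even, the polynomial is self reciprocal -/
theorem root_inv {p : ℕ} [Fact p.Prime] [CharP F p] {f : F[X]} (hf : Irreducible f) {μ : Kˣ}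
    (hμ : aeval (μ : K) f = 0) {r c : ℕ} (hr : r.Prime) (hr2 : r ≠ 2) (ho : orderOf μ = r ^ c)
    (he : Even f.natDegree) : aeval ((μ⁻¹ : Kˣ) : K) f = 0 := by
  obtain ⟨k, hk⟩ := he
  have hk0 : 0 < k := by
    have := hf.natDegree_pos
    omega
  have h1 : μ ^ Nat.card F ^ f.natDegree = μ := (natDegree_dvd_iff hf hμ).1 dvd_rfl
  have h2 : ¬ μ ^ Nat.card F ^ k = μ := fun h => by
    have h3 := Nat.le_of_dvd hk0 ((natDegree_dvd_iff hf hμ).2 h)
    omega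
  have h3 : μ⁻¹ = μ ^ Nat.card F ^ k := by
    set a : ℕ := Nat.card F ^ k with ha
    have ha1 : 1 ≤ a := Nat.one_le_pow _ _ Nat.card_pos
    have h4 : μ ^ (a * a) = μ := by
      rw [ha, ← pow_add, ← hk, h1]
    have h5 : r ^ c ∣ (a - 1) * (a + 1) := by
      rw [← ho]
      refine orderOf_dvd_of_pow_eq_one ?_
      have h6 : (a - 1) * (a + 1) + 1 = a * a := by
        obtain ⟨b, hb⟩ := Nat.exists_eq_add_of_le ha1
        rw [hb, Nat.add_sub_cancel_left]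
        ring
      have h7 : μ ^ ((a - 1) * (a + 1)) * μ = μ := by
        rw [← pow_succ, h6, h4]
      exact mul_eq_right.1 h7
    have h6 : ¬ r ^ c ∣ a - 1 := by
      intro h
      apply h2
      have h7 : μ ^ (a - 1) = 1 := by
        rw [← orderOf_dvd_iff_pow_eq_one, ho]
        exact h
      rw [← Nat.sub_add_cancel ha1, pow_succ, h7, one_mul]
    have h7 : r ^ c ∣ a + 1 := by
      by_cases h8 : r ∣ a - 1
      · have h9 : ¬ r ∣ a + 1 := by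
          intro h9
          have h10 := Nat.dvd_sub h9 h8
          have h11 : a + 1 - (a - 1) = 2 := by omega
          rw [h11] at h10
          exact hr2 ((Nat.prime_dvd_prime_iff_eq hr Nat.prime_two).1 h10)
        exact absurd ((Nat.Coprime.pow_left c ((Nat.Prime.coprime_iff_not_dvd hr).2 h9)).dvd_of_dvd_mul_right h5) h6
      · exact (Nat.Coprime.pow_left c ((Nat.Prime.coprime_iff_not_dvd hr).2 h8)).dvd_of_dvd_mul_left h5
    rw [inv_eq_iff_mul_eq_one, ← pow_succ', ← orderOf_dvd_iff_pow_eq_one, ho]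
    exact h7
  rw [h3, Units.val_pow_eq_pow_val]
  exact root_pow (p := p) hμ k

/-- enough: a power of the Frobenius of `F` -/
theorem map_eq {p : ℕ} [Fact p.Prime] [CharP F p] {f : F[X]} (hf : Irreducible f) (hm : f.Monic) {σ : F ≃+* F}
    {t : ℕ} (hσ : ∀ x, σ x = x ^ p ^ t) {μ : Kˣ} (hμ : aeval (μ : K) f = 0) {j : ℕ}
    (hj : μ ^ p ^ t = μ ^ Nat.card F ^ j) : f.map (σ : F →+* F) = f := by
  have h1 := root_map (p := p) (σ := (σ : F →+* F)) (fun x => hσ x) hμ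
  have h2 := root_pow (p := p) hμ j
  rw [← Units.val_pow_eq_pow_val] at h1 h2
  rw [hj] at h1
  have h3 : Irreducible (f.map (σ : F →+* F)) :=
    (MulEquiv.irreducible_iff (Polynomial.mapEquiv σ)).2 hf
  exact (minpoly.eq_of_irreducible_of_monic h3 h1 (hm.map _)).trans
    (minpoly.eq_of_irreducible_of_monic hf h2 hm).symm

end Deg

end Cfsg.Agent.H340.RV
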