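import Cfsg.Agent.H340.RV.Iso

/-!
# An isometry of order nine on a plane (helper340)
-/

set_option autoImplicit false

namespace Cfsg.Agent.H340.RV

open Module Polynomial

section Field

variable {F K : Type*} [Field F] [Finite F] [Field K] [Algebra F K] [Algebra.IsAlgebraic F K]

theorem mem_range_of_pow_card {x : K} (h : x ^ Nat.card F = x) : ∃ s : F, algebraMap F K s = x := by
  have hx : IsIntegral F x := Algebra.IsIntegral.isIntegral x
  have h1 : (minpoly F x).natDegree ∣ 1 := by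
    rw [(minpoly.irreducible hx).natDegree_dvd_iff_dvd_X_pow_card_pow_sub_X,
      ← (minpoly.irreducible hx).dvd_iff_aeval_eq_zero (minpoly.aeval F x), map_sub, map_pow, aeval_X, pow_one, h,
      sub_self]
  exact minpoly.natDegree_eq_one_iff.1 (Nat.dvd_one.1 h1)

theorem exists_s {ω : Kˣ} (h9 : orderOf ω = 9) (hq : Nat.card F ^ 2 ≡ 1 [MOD 9]) :
    ∃ s : F, algebraMap F K s = ω + (ω⁻¹ : Kˣ) := by
  have _ : Fintype F := Fintype.ofFinite F
  have h1 : Nat.card F % 9 = 1 ∨ Nat.card F % 9 = 8 := by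
    have h2 : (Nat.card F % 9) ^ 2 % 9 = 1 := by
      have h3 : (Nat.card F % 9) ^ 2 ≡ Nat.card F ^ 2 [MOD 9] := (Nat.mod_modEq _ _).pow 2
      exact h3.trans hq
    have h4 : Nat.card F % 9 < 9 := Nat.mod_lt _ (by norm_num)
    interval_cases (Nat.card F % 9) <;> simp_all
  refine mem_range_of_pow_card ?_
  obtain ⟨p, hp⟩ := CharP.exists F
  obtain ⟨n, hpr, hn⟩ := FiniteField.card F p
  have _ : Fact p.Prime := ⟨hpr⟩
  have hK : CharP K p := charP_of_injective_algebraMap (algebraMap F K).injective p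
  have h3 : ((ω : K) + (ω⁻¹ : Kˣ)) ^ Nat.card F = (ω : K) ^ Nat.card F + ((ω⁻¹ : Kˣ) : K) ^ Nat.card F := by
    rw [Nat.card_eq_fintype_card, hn]
    exact add_pow_char_pow (ω : K) _ p n
  rw [h3, ← Units.val_pow_eq_pow_val, ← Units.val_pow_eq_pow_val]
  have h4 : ∀ m, ω ^ m = ω ^ (m % 9) := fun m => by rw [← h9, pow_mod_orderOf]
  rw [inv_pow, h4]
  rcases h1 with h1 | h1
  · rw [h1, pow_one]
  · rw [h1]
    have h5 : ω ^ 8 = ω⁻¹ := by
      rw [eq_inv_iff_mul_eq_one, ← pow_succ]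
      exact orderOf_dvd_iff_pow_eq_one.1 (by rw [h9])
    rw [h5, inv_inv, add_comm]

end Field

section Plane

variable {F V : Type*} [Field F] [AddCommGroup V] [Module F V] {B : V →ₗ[F] V →ₗ[F] F}

/-- a product of two reflections -/
theorem exists_rot (hs : ∀ u v, B u v = B v u) {a b : V} {s α : F} (hα : α ≠ 0) (ha : B a a = α)
    (hb : B b b = α) (hab : 2 * B a b = s * α) :
    ∃ y : V ≃ₗ[F] V, (∀ u v, B (y u) (y v) = B u v) ∧
      aeval (y : V →ₗ[F] V) (X ^ 2 - C (s ^ 2 - 2) * X + 1 : F[X]) a = 0 ∧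
      aeval (y : V →ₗ[F] V) ((X - 1) * (X ^ 2 - C (s ^ 2 - 2) * X + 1) : F[X]) = 0 := by
  have hfa : ((2 / α) • B a) a = 2 := by
    rw [LinearMap.smul_apply, ha, smul_eq_mul, div_mul_cancel₀ _ hα]
  have hfb : ((2 / α) • B b) b = 2 := by
    rw [LinearMap.smul_apply, hb, smul_eq_mul, div_mul_cancel₀ _ hα]
  have hra : ∀ v, Module.reflection hfa v = v - ((2 / α) * B a v) • a := fun v => by
    rw [Module.reflection_apply, LinearMap.smul_apply, smul_eq_mul]
  have hrb : ∀ v, Module.reflection hfb v = v - ((2 / α) * B b v) • b := fun v => by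
    rw [Module.reflection_apply, LinearMap.smul_apply, smul_eq_mul]
  have hisoa : ∀ u v, B (Module.reflection hfa u) (Module.reflection hfa v) = B u v := fun u v => by
    rw [hra, hra]
    simp only [map_sub, map_smul, LinearMap.sub_apply, LinearMap.smul_apply, smul_eq_mul, ha, hs u a]
    field_simp
    ring
  have hisob : ∀ u v, B (Module.reflection hfb u) (Module.reflection hfb v) = B u v := fun u v => by
    rw [hrb, hrb]
    simp only [map_sub, map_smul, LinearMap.sub_apply, LinearMap.smul_apply, smul_eq_mul, hb, hs u b]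
    field_simp
    ring
  let y : V ≃ₗ[F] V := Module.reflection hfa * Module.reflection hfb
  have hy : ∀ v, y v = v + (s * ((2 / α) * B b v) - (2 / α) * B a v) • a - ((2 / α) * B b v) • b := fun v => by
    show Module.reflection hfa (Module.reflection hfb v) = _
    rw [hra, hrb]
    simp only [map_sub, map_smul, smul_eq_mul]
    have h1 : 2 / α * (B a v - 2 / α * B b v * B a b) = (2 / α) * B a v - s * ((2 / α) * B b v) := by
      have h2 : 2 / α * (2 / α * B b v * B a b) = (2 / α * B b v) * (1 / α) * (2 * B a b) := by ring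
      rw [mul_sub, h2, hab]
      field_simp
    rw [h1]
    module
  have hba : 2 * B b a = s * α := by rw [hs, hab]
  have hya : y a = (s ^ 2 - 1) • a - s • b := by
    rw [hy, ha]
    have h1 : 2 / α * B b a = s := by
      rw [div_mul_eq_mul_div, hba, mul_div_cancel_right₀ _ hα]
    have h2 : 2 / α * α = 2 := div_mul_cancel₀ _ hα
    rw [h1, h2]
    module
  have hyb : y b = s • a - b := by
    rw [hy, hb]
    have h1 : 2 / α * B a b = s := by
      rw [div_mul_eq_mul_div, hab, mul_div_cancel_right₀ _ hα]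
    have h2 : 2 / α * α = 2 := div_mul_cancel₀ _ hα
    rw [h1, h2]
    module
  have hQ : ∀ v, aeval (y : V →ₗ[F] V) (X ^ 2 - C (s ^ 2 - 2) * X + 1 : F[X]) v = y (y v) - (s ^ 2 - 2) • y v + v := by
    intro v
    rw [map_add, map_sub, map_mul, map_pow, aeval_X, aeval_C, map_one, pow_two ((y : V →ₗ[F] V) : End F V)]
    rfl
  have hQa : aeval (y : V →ₗ[F] V) (X ^ 2 - C (s ^ 2 - 2) * X + 1 : F[X]) a = 0 := by
    rw [hQ, hya, map_sub, map_smul, map_smul, hya, hyb]
    module
  have hQb : aeval (y : V →ₗ[F] V) (X ^ 2 - C (s ^ 2 - 2) * X + 1 : F[X]) b = 0 := by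
    rw [hQ, hyb, map_sub, map_smul, hya, hyb]
    module
  refine ⟨y, fun u v => ?_, hQa, ?_⟩
  · show B (Module.reflection hfa (Module.reflection hfb u)) (Module.reflection hfa (Module.reflection hfb v)) = B u v
    rw [hisoa, hisob]
  · ext v
    rw [mul_comm, map_mul, Module.End.mul_apply, LinearMap.zero_apply]
    have h1 : aeval (y : V →ₗ[F] V) (X - 1 : F[X]) v =
        (s * ((2 / α) * B b v) - (2 / α) * B a v) • a - ((2 / α) * B b v) • b := by
      rw [map_sub, aeval_X, map_one]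
      show y v - v = _
      rw [hy]
      module
    rw [h1, map_sub, map_smul, map_smul, hQa, hQb, smul_zero, smul_zero, sub_zero]

theorem exists_ab [Finite F] [FiniteDimensional F V] (h2 : (2 : F) ≠ 0) (hs : ∀ u v, B u v = B v u)
    (hnd : ∀ v, (∀ u, B v u = 0) → v = 0) (h3 : 3 ≤ finrank F V) {s : F} :
    ∃ (a b : V) (α : F), α ≠ 0 ∧ B a a = α ∧ B b b = α ∧ 2 * B a b = s * α := by
  have _ : Fintype F := Fintype.ofFinite F
  have _ : Invertible (2 : F) := invertibleOfNonzero h2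
  obtain ⟨v, hv⟩ := LinearMap.BilinForm.exists_orthogonal_basis (B := B) ⟨hs⟩
  have hB : LinearMap.BilinForm.Nondegenerate B := by
    refine ⟨fun x hx => hnd x hx, fun x hx => hnd x fun u => by rw [hs, hx]⟩
  have hne := fun i => LinearMap.BilinForm.iIsOrtho.not_isOrtho_basis_self_of_nondegenerate (B := B) (v := v) hv hB i
  let i0 : Fin (finrank F V) := ⟨0, by omega⟩
  let i1 : Fin (finrank F V) := ⟨1, by omega⟩
  let i2 : Fin (finrank F V) := ⟨2, by omega⟩
  have hij : ∀ i j, i ≠ j → B (v i) (v j) = 0 := fun i j h => hv h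
  have h01 : i0 ≠ i1 := fun h => by simp [i0, i1] at h
  have h02 : i0 ≠ i2 := fun h => by simp [i0, i2] at h
  have h12 : i1 ≠ i2 := fun h => by simp [i1, i2] at h
  set c0 := B (v i0) (v i0) with hc0
  set c1 := B (v i1) (v i1) with hc1
  set c2 := B (v i2) (v i2) with hc2
  have hodd : Fintype.card F % 2 = 1 := by
    refine FiniteField.odd_card_of_char_ne_two ?_
    intro h
    apply h2
    have h3 : ((ringChar F : ℕ) : F) = 0 := ringChar.Nat.cast_ringChar
    rw [h] at h3
    exact_mod_cast h3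
  obtain ⟨x, y, hxy⟩ := FiniteField.exists_root_sum_quadratic (R := F) (f := C c1 * X ^ 2)
    (g := C c2 * X ^ 2 - C (c0 - s ^ 2 / 4 * c0)) (degree_C_mul_X_pow 2 (hne i1)) (by
      rw [degree_sub_eq_left_of_degree_lt]
      · exact degree_C_mul_X_pow 2 (hne i2)
      · rw [degree_C_mul_X_pow 2 (hne i2)]
        exact degree_C_le.trans_lt (by decide)) hodd
  refine ⟨v i0, (s / 2) • v i0 + x • v i1 + y • v i2, c0, hne i0, rfl, ?_, ?_⟩
  · have h4 : (4 : F) ≠ 0 := by
      have : (4 : F) = 2 * 2 := by norm_num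
      rw [this]
      exact mul_ne_zero h2 h2
    simp only [map_add, map_smul, LinearMap.add_apply, LinearMap.smul_apply, smul_eq_mul, hij _ _ h01, hij _ _ h02,
      hij _ _ h12, hij _ _ h01.symm, hij _ _ h02.symm, hij _ _ h12.symm, ← hc0, ← hc1, ← hc2, mul_zero, add_zero,
      zero_add]
    simp only [eval_mul, eval_C, eval_pow, eval_X, eval_sub] at hxy
    have h5 : s / 2 * (s / 2 * c0) = s ^ 2 / 4 * c0 := by
      field_simp
      ring
    rw [h5]
    linear_combination hxy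
  · simp only [map_add, map_smul, smul_eq_mul, hij _ _ h01, hij _ _ h02, ← hc0, mul_zero, add_zero]
    field_simp

end Plane

section Nine

variable {F V : Type*} [Field F] [AddCommGroup V] [Module F V] {B : V →ₗ[F] V →ₗ[F] F}

theorem exists_nine [Finite F] [FiniteDimensional F V] (h2 : (2 : F) ≠ 0) (h3 : (3 : F) ≠ 0)
    (hs : ∀ u v, B u v = B v u) (hnd : ∀ v, (∀ u, B v u = 0) → v = 0) (hd : 3 ≤ finrank F V)
    (hq : Nat.card F ^ 2 ≡ 1 [MOD 9]) :
    ∃ y : V ≃ₗ[F] V, (∀ u v, B (y u) (y v) = B u v) ∧ y ^ 9 = 1 ∧ y ^ 3 ≠ 1 ∧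
      ∃ P : F[X], P ≠ 0 ∧ P.natDegree ≤ 3 ∧ aeval (y : V →ₗ[F] V) P = 0 := by
  let K := AlgebraicClosure F
  have h9 : ((9 : ℕ) : K) ≠ 0 := by
    have h4 : ((9 : ℕ) : K) = algebraMap F K (3 * 3) := by
      rw [map_mul, map_ofNat]
      norm_num
    rw [h4]
    exact (_root_.map_ne_zero _).2 (mul_ne_zero h3 h3)
  have _ : NeZero ((9 : ℕ) : K) := ⟨h9⟩
  obtain ⟨ζ, hζ⟩ := HasEnoughRootsOfUnity.exists_primitiveRoot K 9
  have hζ0 : ζ ≠ 0 := hζ.ne_zero (by norm_num)
  let ω : Kˣ := Units.mk0 ζ hζ0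
  have hω : orderOf ω = 9 := by
    rw [← orderOf_units]
    exact hζ.eq_orderOf.symm
  obtain ⟨s, hsω⟩ := exists_s hω hq
  obtain ⟨a, b, α, hα, ha, hb, hab⟩ := exists_ab h2 hs hnd hd (s := s)
  obtain ⟨y, hy, hya, hyP⟩ := exists_rot hs hα ha hb hab
  have ha0 : a ≠ 0 := by
    rintro rfl
    exact hα (by rw [← ha]; simp)
  set Q : F[X] := X ^ 2 - C (s ^ 2 - 2) * X + 1 with hQ
  let z : Kˣ := ω ^ 2
  have hzo : ∀ k, z ^ k = 1 → 9 ∣ 2 * k := by
    intro k hk
    rw [← hω]
    refine orderOf_dvd_of_pow_eq_one ?_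
    rw [pow_mul]
    exact hk
  have hz1 : (z : K) ≠ 1 := fun h => by
    have h4 := hzo 1 (by rw [pow_one]; exact Units.ext h)
    omega
  have hz3 : (z : K) ^ 3 ≠ 1 := fun h => by
    have h4 := hzo 3 (Units.ext (by rw [Units.val_pow_eq_pow_val]; exact h))
    omega
  have hz9 : (z : K) ^ 9 = 1 := by
    rw [← Units.val_pow_eq_pow_val]
    show ((ω ^ 2) ^ 9 : Kˣ) = (1 : K)
    rw [← pow_mul, mul_comm, pow_mul, ← hω, pow_orderOf_eq_one, one_pow, Units.val_one]
  have hzi : ((z⁻¹ : Kˣ) : K) * z = 1 := Units.inv_mul z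
  have hzi' : (z : K) * ((z⁻¹ : Kˣ) : K) = 1 := Units.mul_inv z
  have hzz : (z : K) ≠ ((z⁻¹ : Kˣ) : K) := fun h => by
    have h4 := hzo 2 (by
      rw [pow_two]
      nth_rewrite 1 [Units.ext h]
      exact inv_mul_cancel z)
    omega
  have ht : algebraMap F K (s ^ 2 - 2) = z + (z⁻¹ : Kˣ) := by
    rw [map_sub, map_pow, hsω, map_ofNat]
    have h4 : (ω : K) * ((ω⁻¹ : Kˣ) : K) = 1 := Units.mul_inv ω
    have h5 : ((z⁻¹ : Kˣ) : K) = ((ω⁻¹ : Kˣ) : K) ^ 2 := by
      rw [← Units.val_pow_eq_pow_val, inv_pow]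
    rw [h5, show (z : K) = (ω : K) ^ 2 from Units.val_pow_eq_pow_val _ _]
    linear_combination 2 * h4
  have hQm : Q.map (algebraMap F K) = (X - C (z : K)) * (X - C ((z⁻¹ : Kˣ) : K)) := by
    rw [hQ, Polynomial.map_add, Polynomial.map_sub, Polynomial.map_mul, Polynomial.map_pow, Polynomial.map_X,
      Polynomial.map_C, Polynomial.map_one, ht]
    have h4 : (C (z : K) * C ((z⁻¹ : Kˣ) : K) : K[X]) = 1 := by rw [← C_mul, hzi', C_1]
    rw [C_add]
    linear_combination -h4
  have hQmonic : Q.Monic := by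
    have h4 : (Q.map (algebraMap F K)).Monic := by
      rw [hQm]
      exact (monic_X_sub_C _).mul (monic_X_sub_C _)
    exact Polynomial.monic_of_injective (algebraMap F K).injective h4
  have hPmonic : ((X - 1) * Q).Monic := by
    have : (X - 1 : F[X]) = X - C 1 := by rw [C_1]
    rw [this]
    exact (monic_X_sub_C _).mul hQmonic
  have hPd : (X - 1) * Q ∣ X ^ 9 - 1 := by
    rw [← Polynomial.map_dvd_map _ (algebraMap F K).injective hPmonic, Polynomial.map_mul, hQm, Polynomial.map_sub,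
      Polynomial.map_sub, Polynomial.map_pow, Polynomial.map_X, Polynomial.map_one]
    have hc : ∀ u v : K, u ≠ v → IsCoprime (X - C u) (X - C v) := fun u v h =>
      Polynomial.isCoprime_X_sub_C_of_isUnit_sub (sub_ne_zero.2 h).isUnit
    have hr : ∀ u : K, u ^ 9 = 1 → (X - C u) ∣ (X ^ 9 - 1 : K[X]) := fun u hu => by
      rw [dvd_iff_isRoot, IsRoot.def, eval_sub, eval_pow, eval_X, eval_one, hu, sub_self]
    have hzi9 : ((z⁻¹ : Kˣ) : K) ^ 9 = 1 := by
      have h4 : (((z⁻¹ : Kˣ) : K) * z) ^ 9 = 1 := by rw [hzi, one_pow]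
      rwa [mul_pow, hz9, mul_one] at h4
    have hzi1 : (1 : K) ≠ ((z⁻¹ : Kˣ) : K) := fun h => by
      rw [← h, one_mul] at hzi
      exact hz1 hzi
    rw [← C_1]
    refine IsCoprime.mul_dvd ?_ ?_ (IsCoprime.mul_dvd (hc _ _ hzz) ?_ ?_)
    · exact (hc _ _ hz1.symm).mul_right (hc _ _ hzi1)
    · rw [C_1]
      have h4 := hr 1 (one_pow _)
      rwa [C_1] at h4
    · rw [C_1]
      exact hr _ hz9
    · rw [C_1]
      exact hr _ hzi9
  refine ⟨y, hy, ?_, ?_, (X - 1) * Q, hPmonic.ne_zero, ?_, hyP⟩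
  · obtain ⟨R, hR⟩ := hPd
    have h4 : aeval (y : V →ₗ[F] V) (X ^ 9 - 1 : F[X]) = 0 := by
      rw [hR, map_mul, hyP, zero_mul]
    ext v
    have h5 := congrArg (fun f : End F V => f v) h4
    simp only [map_sub, map_pow, aeval_X, map_one] at h5
    rw [LinearMap.sub_apply, end_pow_apply, Module.End.one_apply, LinearMap.zero_apply, sub_eq_zero] at h5
    exact h5
  · intro hy3
    have hcop : IsCoprime Q (X ^ 3 - 1) := by
      rw [← Polynomial.isCoprime_map (algebraMap F K), hQm, Polynomial.map_sub, Polynomial.map_pow, Polynomial.map_X,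
        Polynomial.map_one]
      have hc : ∀ u : K, u ^ 3 ≠ 1 → IsCoprime (X - C u) (X ^ 3 - 1) := fun u hu => by
        rw [(irreducible_X_sub_C u).coprime_iff_not_dvd, dvd_iff_isRoot, IsRoot.def, eval_sub, eval_pow, eval_X,
          eval_one, sub_eq_zero]
        exact hu
      refine (hc _ hz3).mul_left (hc _ ?_)
      intro h
      apply hz3
      have h4 : (((z⁻¹ : Kˣ) : K) * z) ^ 3 = 1 := by rw [hzi, one_pow]
      rwa [mul_pow, h, one_mul] at h4
    obtain ⟨c, d, hcd⟩ := hcop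
    apply ha0
    have h4 : aeval (y : V →ₗ[F] V) (c * Q + d * (X ^ 3 - 1)) a = a := by rw [hcd, map_one, Module.End.one_apply]
    rw [map_add, LinearMap.add_apply, map_mul, map_mul, Module.End.mul_apply, Module.End.mul_apply, hya, map_zero,
      zero_add, map_sub, map_pow, aeval_X, map_one, LinearMap.sub_apply, end_pow_apply, hy3,
      Module.End.one_apply, show (1 : V ≃ₗ[F] V) a = a from rfl, sub_self, map_zero] at h4
    exact h4.symm
  · have h4 : ((X - 1) * Q).natDegree = 3 := by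
      have h5 : (((X - 1) * Q).map (algebraMap F K)).natDegree = 3 := by
        rw [Polynomial.map_mul, hQm, Polynomial.map_sub, Polynomial.map_X, Polynomial.map_one, ← C_1,
          (monic_X_sub_C _).natDegree_mul ((monic_X_sub_C _).mul (monic_X_sub_C _)),
          (monic_X_sub_C _).natDegree_mul (monic_X_sub_C _), natDegree_X_sub_C, natDegree_X_sub_C, natDegree_X_sub_C]
      rwa [Polynomial.natDegree_map] at h5
    exact h4.le

end Nine

end Cfsg.Agent.H340.RV
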