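import Cfsg.Agent.H340.RV.Iso

/-!
# Isometries with one given irreducible factor (helper340)

`exists_small` : `T` an isometry of order prime to `p`, `f` irreducible with `ker f(T) ≠ 0`; there is an isometry `y` with
`ker f(y) ≠ 0` which is the identity outside a nondegenerate subspace of dimension `≤ deg f` (`≤ 2 deg f` when `f` is not
self reciprocal).
-/

set_option autoImplicit false

namespace Cfsg.Agent.H340.RV

open Module Polynomial

variable {F V : Type*} [Field F] [AddCommGroup V] [Module F V] [FiniteDimensional F V] {B : V →ₗ[F] V →ₗ[F] F}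

theorem case_one (hs : ∀ u v, B u v = B v u) {T : V ≃ₗ[F] V}
    (hT : ∀ u v, B (T u) (T v) = B u v) {N : ℕ} (hN : N ≠ 0) (hTN : T ^ N = 1) {f : F[X]} (hf : Irreducible f)
    (hm : f.Monic) {M : ℕ} (hM : f ∣ X ^ M - 1) {v : V} (hv : aeval (T : V →ₗ[F] V) f v = 0) (hvv : B v v ≠ 0) :
    ∃ y : V ≃ₗ[F] V, (∀ u v, B (y u) (y v) = B u v) ∧ y ^ M = 1 ∧ (∃ v, v ≠ 0 ∧ aeval (y : V →ₗ[F] V) f v = 0) ∧
      aeval (y : V →ₗ[F] V) ((X - 1) * f) = 0 ∧
      finrank F (LinearMap.range ((y : V →ₗ[F] V) - LinearMap.id)) ≤ f.natDegree := by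
  have hTS : ∀ u v, B (T u) v = B u (T.symm v) := fun u v => by
    rw [← hT u (T.symm v), LinearEquiv.apply_symm_apply]
  have hsym := pow_symm_mem (F := F) hN hTN
  have hW : ∀ w ∈ cyc (T : V →ₗ[F] V) v, T w ∈ cyc (T : V →ₗ[F] V) v := fun w hw => by
    have h1 := aeval_mem_cyc hw (X : F[X])
    rwa [aeval_X] at h1
  have hW' : ∀ w ∈ cyc (T : V →ₗ[F] V) v, T.symm w ∈ cyc (T : V →ₗ[F] V) v := fun w hw => by
    have h1 := aeval_mem_cyc hw (X ^ (N - 1) : F[X])
    rw [← hsym] at h1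
    exact h1
  have hWS : ∀ (g : F[X]), ∀ w ∈ cyc (T : V →ₗ[F] V) v,
      aeval ((T.symm : V ≃ₗ[F] V) : V →ₗ[F] V) g w ∈ cyc (T : V →ₗ[F] V) v := fun g w hw => by
    rw [hsym, ← aeval_comp]
    exact aeval_mem_cyc hw _
  obtain ⟨y, hy, h1, h2, h3⟩ := exists_ext hs hT hW hW' (by
    intro w hw hw'
    by_contra hw0
    obtain ⟨h, hh⟩ := exists_aeval_eq hf hv hw hw0
    apply hvv
    nth_rewrite 1 [← hh]
    rw [adj (S := ((T.symm : V ≃ₗ[F] V) : V →ₗ[F] V)) hTS, hs]
    exact hw' _ (hWS h v (self_mem_cyc _ _)))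
  obtain ⟨h4, h5, h6, h7⟩ := ext_props hW h1 h2 h3
  have hv0 : v ≠ 0 := by
    rintro rfl
    exact hvv (by simp)
  refine ⟨y, hy, h6 M ?_, ⟨v, hv0, ?_⟩, h5 f fun w hw => aeval_zero_of_mem_cyc hw hv,
    (Submodule.finrank_mono h7).trans (finrank_cyc_le hm hv)⟩
  · intro w hw
    obtain ⟨k, hk⟩ := hM
    rw [hk, mul_comm, map_mul, Module.End.mul_apply, aeval_zero_of_mem_cyc hw hv, map_zero]
  · rw [h4 f v (self_mem_cyc _ _), hv]

theorem case_two (hs : ∀ u v, B u v = B v u) {T : V ≃ₗ[F] V}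
    (hT : ∀ u v, B (T u) (T v) = B u v) {N : ℕ} (hN : N ≠ 0) (hTN : T ^ N = 1) {f : F[X]} (hf : Irreducible f)
    (hm : f.Monic) {M : ℕ} (hM : f ∣ X ^ M - 1) {v w : V} (hv : aeval (T : V →ₗ[F] V) f v = 0)
    (hw : aeval ((T.symm : V ≃ₗ[F] V) : V →ₗ[F] V) f w = 0) (hvw : B v w ≠ 0)
    (hi1 : ∀ a b, aeval (T : V →ₗ[F] V) f a = 0 → aeval (T : V →ₗ[F] V) f b = 0 → B a b = 0) :
    ∃ y : V ≃ₗ[F] V, (∀ u v, B (y u) (y v) = B u v) ∧ y ^ M = 1 ∧ (∃ v, v ≠ 0 ∧ aeval (y : V →ₗ[F] V) f v = 0) ∧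
      ¬ f ∣ rv f ∧ aeval (y : V →ₗ[F] V) ((X - 1) * (f * rv f)) = 0 ∧
      finrank F (LinearMap.range ((y : V →ₗ[F] V) - LinearMap.id)) ≤ 2 * f.natDegree := by
  have hTS : ∀ u v, B (T u) v = B u (T.symm v) := fun u v => by
    rw [← hT u (T.symm v), LinearEquiv.apply_symm_apply]
  have hST : ∀ u v, B (T.symm u) v = B u (T v) := fun u v => by
    rw [hs, ← hTS, hs]
  have hsym := pow_symm_mem (F := F) hN hTN
  have hTN' : (T.symm) ^ N = 1 := by
    show (T⁻¹) ^ N = 1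
    rw [inv_pow, hTN, inv_one]
  have hsym' := pow_symm_mem (F := F) hN hTN'
  rw [LinearEquiv.symm_symm] at hsym'
  set S : V →ₗ[F] V := ((T.symm : V ≃ₗ[F] V) : V →ₗ[F] V) with hS
  set T' : V →ₗ[F] V := (T : V →ₗ[F] V) with hT'
  have hTv : ∀ (g : F[X]), ∀ a ∈ cyc T' v, aeval T' g a ∈ cyc T' v := fun g a ha => aeval_mem_cyc ha g
  have hSv : ∀ (g : F[X]), ∀ a ∈ cyc T' v, aeval S g a ∈ cyc T' v := fun g a ha => by
    rw [hsym, ← aeval_comp]
    exact aeval_mem_cyc ha _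
  have hSw : ∀ (g : F[X]), ∀ a ∈ cyc S w, aeval S g a ∈ cyc S w := fun g a ha => aeval_mem_cyc ha g
  have hTw : ∀ (g : F[X]), ∀ a ∈ cyc S w, aeval T' g a ∈ cyc S w := fun g a ha => by
    rw [hsym', ← aeval_comp]
    exact aeval_mem_cyc ha _
  have hW : ∀ x ∈ cyc T' v ⊔ cyc S w, T x ∈ cyc T' v ⊔ cyc S w := fun x hx => by
    obtain ⟨a, ha, b, hb, rfl⟩ := Submodule.mem_sup.1 hx
    rw [map_add]
    refine add_mem (Submodule.mem_sup_left ?_) (Submodule.mem_sup_right ?_)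
    · have h1 := hTv X a ha
      rwa [aeval_X] at h1
    · have h1 := hTw X b hb
      rwa [aeval_X] at h1
  have hW' : ∀ x ∈ cyc T' v ⊔ cyc S w, T.symm x ∈ cyc T' v ⊔ cyc S w := fun x hx => by
    obtain ⟨a, ha, b, hb, rfl⟩ := Submodule.mem_sup.1 hx
    rw [map_add]
    refine add_mem (Submodule.mem_sup_left ?_) (Submodule.mem_sup_right ?_)
    · have h1 := hSv X a ha
      rwa [aeval_X] at h1
    · have h1 := hSw X b hb
      rwa [aeval_X] at h1
  have hka : ∀ a ∈ cyc T' v, aeval T' f a = 0 := fun a ha => aeval_zero_of_mem_cyc ha hv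
  have hkb : ∀ a ∈ cyc S w, aeval S f a = 0 := fun a ha => aeval_zero_of_mem_cyc ha hw
  obtain ⟨y, hy, h1, h2, h3⟩ := exists_ext hs hT hW hW' (by
    intro x hx hx'
    obtain ⟨a, ha, b, hb, rfl⟩ := Submodule.mem_sup.1 hx
    have hb0 : b = 0 := by
      by_contra hb0
      obtain ⟨h, hh⟩ := exists_aeval_eq hf hw hb hb0
      apply hvw
      rw [← hh, ← adj (T := T') hTS]
      have h4 := hx' (aeval T' h v) (Submodule.mem_sup_left (hTv h v (self_mem_cyc _ _)))
      rw [map_add, hi1 _ a (hka _ (hTv h v (self_mem_cyc _ _))) (hka a ha), zero_add] at h4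
      exact h4
    have ha0 : a = 0 := by
      by_contra ha0
      obtain ⟨h, hh⟩ := exists_aeval_eq hf hv ha ha0
      apply hvw
      rw [← hh, adj (S := S) hTS]
      have h4 := hx' (aeval S h w) (Submodule.mem_sup_right (hSw h w (self_mem_cyc _ _)))
      rw [hb0, add_zero, hs] at h4
      exact h4
    rw [ha0, hb0, add_zero])
  obtain ⟨h4, h5, h6, h7⟩ := ext_props hW h1 h2 h3
  have hv0 : v ≠ 0 := by
    rintro rfl
    exact hvw (by simp)
  have hTS1 : T' * S = 1 := by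
    ext u
    show T (T.symm u) = u
    rw [LinearEquiv.apply_symm_apply]
  have hkb' : ∀ a ∈ cyc S w, aeval T' (rv f) a = 0 := fun a ha => by
    rw [aeval_rv hTS1, Module.End.mul_apply, hkb a ha, map_zero]
  refine ⟨y, hy, h6 M ?_, ⟨v, hv0, ?_⟩, ?_, h5 _ ?_, (Submodule.finrank_mono h7).trans ?_⟩
  · intro x hx
    obtain ⟨a, ha, b, hb, rfl⟩ := Submodule.mem_sup.1 hx
    obtain ⟨k, hk⟩ := hM
    have h8 : aeval T' (X ^ M - 1 : F[X]) a = 0 := by
      rw [hk, mul_comm, map_mul, Module.End.mul_apply, hka a ha, map_zero]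
    have h9 : aeval S (X ^ M - 1 : F[X]) b = 0 := by
      rw [hk, mul_comm, map_mul, Module.End.mul_apply, hkb b hb, map_zero]
    have h10 : aeval T' (X ^ M - 1 : F[X]) b = 0 := by
      rw [map_sub, map_pow, aeval_X, map_one, LinearMap.sub_apply, Module.End.one_apply, sub_eq_zero] at h9 ⊢
      nth_rewrite 1 [← h9]
      rw [← Module.End.mul_apply, pow_mul_pow_eq hTS1, Module.End.one_apply]
    rw [map_add, h8, h10, add_zero]
  · rw [h4 f v (Submodule.mem_sup_left (self_mem_cyc _ _)), hv]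
  · rintro ⟨k, hk⟩
    apply hvw
    refine hi1 v w hv ?_
    have hk0 : k ≠ 0 := by
      rintro rfl
      exact rv_ne_zero hm.ne_zero (by rw [hk, mul_zero])
    have hkd : k.natDegree = 0 := by
      have h8 := natDegree_rv_le f
      rw [hk, natDegree_mul hm.ne_zero hk0] at h8
      omega
    obtain ⟨c, rfl⟩ := natDegree_eq_zero.1 hkd
    have hc : c ≠ 0 := fun h => hk0 (by rw [h, C_0])
    have h9 := hkb' w (self_mem_cyc _ _)
    rw [hk, mul_comm, map_mul, aeval_C, Module.End.mul_apply, Module.algebraMap_end_apply] at h9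
    exact (smul_eq_zero.1 h9).resolve_left hc
  · intro x hx
    obtain ⟨a, ha, b, hb, rfl⟩ := Submodule.mem_sup.1 hx
    rw [map_add, map_mul, Module.End.mul_apply, Module.End.mul_apply, hkb' b hb, map_zero, add_zero,
      ← Module.End.mul_apply, ← map_mul, mul_comm, map_mul, Module.End.mul_apply, hka a ha, map_zero]
  · have h8 := Submodule.finrank_add_le_finrank_add_finrank (cyc T' v) (cyc S w)
    have h9 := finrank_cyc_le hm hv
    have h10 := finrank_cyc_le hm hw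
    omega

theorem exists_small (h2 : (2 : F) ≠ 0) (hs : ∀ u v, B u v = B v u) (hnd : ∀ v, (∀ u, B v u = 0) → v = 0)
    {T : V ≃ₗ[F] V} (hT : ∀ u v, B (T u) (T v) = B u v) {N : ℕ} (hN : (N : F) ≠ 0) (hTN : T ^ N = 1) {f : F[X]}
    (hf : Irreducible f) (hm : f.Monic) {M : ℕ} (hM : f ∣ X ^ M - 1) {v : V} (hv0 : v ≠ 0)
    (hv : aeval (T : V →ₗ[F] V) f v = 0) :
    ∃ y : V ≃ₗ[F] V, (∀ u v, B (y u) (y v) = B u v) ∧ y ^ M = 1 ∧ (∃ v, v ≠ 0 ∧ aeval (y : V →ₗ[F] V) f v = 0) ∧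
      ((aeval (y : V →ₗ[F] V) ((X - 1) * f) = 0 ∧
        finrank F (LinearMap.range ((y : V →ₗ[F] V) - LinearMap.id)) ≤ f.natDegree) ∨
      (¬ f ∣ rv f ∧ aeval (y : V →ₗ[F] V) ((X - 1) * (f * rv f)) = 0 ∧
        finrank F (LinearMap.range ((y : V →ₗ[F] V) - LinearMap.id)) ≤ 2 * f.natDegree)) := by
  have hN0 : N ≠ 0 := by
    rintro rfl
    exact hN (by simp)
  have hTS : ∀ u v, B (T u) v = B u (T.symm v) := fun u v => by
    rw [← hT u (T.symm v), LinearEquiv.apply_symm_apply]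
  have hS : ∀ u v, B (T.symm u) (T.symm v) = B u v := fun u v => by
    rw [← hTS, LinearEquiv.apply_symm_apply]
  have hTN' : (T.symm) ^ N = 1 := by
    show (T⁻¹) ^ N = 1
    rw [inv_pow, hTN, inv_one]
  have hpol : ∀ (R : V →ₗ[F] V), (∀ v, aeval R f v = 0 → B v v = 0) →
      ∀ a b, aeval R f a = 0 → aeval R f b = 0 → B a b = 0 := by
    intro R hR a b ha hb
    have h3 := hR (a + b) (by rw [map_add, ha, hb, add_zero])
    rw [map_add, map_add, LinearMap.add_apply, LinearMap.add_apply, hR a ha, hR b hb, hs b a, zero_add, add_zero,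
      ← two_mul] at h3
    exact (mul_eq_zero.1 h3).resolve_left h2
  by_cases h1 : ∀ v, aeval (T : V →ₗ[F] V) f v = 0 → B v v = 0
  · by_cases h1' : ∀ v, aeval ((T.symm : V ≃ₗ[F] V) : V →ₗ[F] V) f v = 0 → B v v = 0
    · have hu : ∃ u, B v u ≠ 0 := by
        by_contra hcon
        push Not at hcon
        exact hv0 (hnd v hcon)
      obtain ⟨u, hu⟩ := hu
      have hfX : f ∣ X ^ N - 1 := by
        by_contra hcon
        obtain ⟨a, b, hab⟩ := hf.coprime_iff_not_dvd.2 hcon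
        have h3 : aeval (T : V →ₗ[F] V) (a * f + b * (X ^ N - 1)) v = v := by
          rw [hab, map_one, Module.End.one_apply]
        rw [map_add, LinearMap.add_apply, map_mul, map_mul, Module.End.mul_apply, Module.End.mul_apply, hv, map_zero,
          zero_add, map_sub, map_pow, aeval_X, map_one, LinearMap.sub_apply, end_pow_apply, hTN,
          Module.End.one_apply, show (1 : V ≃ₗ[F] V) v = v from rfl, sub_self, map_zero] at h3
        exact hv0 h3.symm
      obtain ⟨g, hg⟩ := hfX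
      have hsep : (X ^ N - 1 : F[X]).Separable := (X_pow_sub_one_separable_iff).2 hN
      rw [hg] at hsep
      obtain ⟨a, b, hab⟩ := hsep.isCoprime
      set S : V →ₗ[F] V := ((T.symm : V ≃ₗ[F] V) : V →ₗ[F] V) with hSd
      have hSN : aeval S (X ^ N - 1 : F[X]) = 0 := by
        ext x
        rw [map_sub, map_pow, aeval_X, map_one, LinearMap.sub_apply, hSd, end_pow_apply, hTN',
          Module.End.one_apply, show (1 : V ≃ₗ[F] V) x = x from rfl, sub_self, LinearMap.zero_apply]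
      let w : V := aeval S (b * g) u
      have hw : aeval S f w = 0 := by
        show aeval S f (aeval S (b * g) u) = 0
        rw [← Module.End.mul_apply, ← map_mul, show f * (b * g) = b * (f * g) by ring, ← hg, map_mul, hSN, mul_zero,
          LinearMap.zero_apply]
      have hvw : B v w ≠ 0 := by
        intro hcon
        apply hu
        have h3 : aeval S (a * f + b * g) u = u := by rw [hab, map_one, Module.End.one_apply]
        rw [← h3, map_add, LinearMap.add_apply, map_add, show aeval S (b * g) u = w from rfl, hcon, add_zero, mul_comm,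
          map_mul, Module.End.mul_apply, ← adj (T := (T : V →ₗ[F] V)) hTS, hv, map_zero, LinearMap.zero_apply]
      obtain ⟨y, hy1, hy2, hy3, hy4⟩ := case_two hs hT hN0 hTN hf hm hM hv hw hvw (hpol _ h1)
      exact ⟨y, hy1, hy2, hy3, Or.inr hy4⟩
    · push Not at h1'
      obtain ⟨v', hv', hvv'⟩ := h1'
      obtain ⟨y, hy1, hy2, hy3, hy4⟩ := case_one hs hS hN0 hTN' hf hm hM hv' hvv'
      exact ⟨y, hy1, hy2, hy3, Or.inl hy4⟩
  · push Not at h1
    obtain ⟨v', hv', hvv'⟩ := h1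
    obtain ⟨y, hy1, hy2, hy3, hy4⟩ := case_one hs hT hN0 hTN hf hm hM hv' hvv'
    exact ⟨y, hy1, hy2, hy3, Or.inl hy4⟩

end Cfsg.Agent.H340.RV
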