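import Cfsg.Agent.H340.MP.One
import Cfsg.Agent.H340.MP.FT
import Cfsg.Agent.H340.RV.Small
import Cfsg.Agent.H340.RV.NT
import Cfsg.Agent.H340.RV.Nine

/-!
# Characteristic polynomials of Hall subgroups of orthogonal groups (helper340)

`charpoly_map` : `H` a `p'`-group of isometries of a symmetric form (`p ≠ 2`, dimension `≥ 3`), `3 ∣ |H|`, for every odd
prime divisor `r` of `|H|` every isometry of `r`-power order is conjugate (in `GL(V)`) to an element of `H`, and
`O_r(H) = 1` for all odd `r`. Then the characteristic polynomials of the elements of `H` are fixed by all field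
automorphisms of odd order.
-/

set_option autoImplicit false

namespace Cfsg.Agent.H340.RV

open Module Polynomial Cfsg.Agent.H340.MP

section Sigma

variable {F : Type*} [Field F] [Finite F] {p : ℕ} [Fact p.Prime] [CharP F p]

theorem exists_sigma (σ : F ≃+* F) (hσ : Odd (orderOf σ)) :
    ∃ g n k : ℕ, 0 < g ∧ Odd n ∧ Nat.card F = (p ^ g) ^ n ∧ ∀ x, σ x = x ^ p ^ (g * k) := by
  have _ : Algebra (ZMod p) F := ZMod.algebra F p
  have hfin : Module.Finite (ZMod p) F := Module.Finite.of_finite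
  let τ : F ≃ₐ[ZMod p] F := AlgEquiv.ofRingEquiv (f := σ) (fun x => by
    have h1 : (σ : F →+* F).comp (algebraMap (ZMod p) F) = algebraMap (ZMod p) F := RingHom.ext_zmod _ _
    exact congrArg (fun f : ZMod p →+* F => f x) h1)
  obtain ⟨i, hi⟩ := FiniteField.exists_forall_apply_eq_pow (ZMod p) p F τ
  have hi' : ∀ x, σ x = x ^ p ^ i := fun x => by
    have h1 := hi x
    rw [Nat.card_zmod] at h1
    exact h1
  set s := finrank (ZMod p) F with hs
  have hs0 : 0 < s := Module.finrank_pos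
  have hcard : Nat.card F = p ^ s := by
    rw [Module.natCard_eq_pow_finrank (K := ZMod p), Nat.card_zmod]
  have h1 : ∀ (m : ℕ) (x : F), (σ ^ m) x = x ^ p ^ (i * m) := by
    intro m
    induction m with
    | zero => intro x; simp
    | succ m ih =>
      intro x
      rw [pow_succ', RingAut.mul_apply, ih, hi', ← pow_mul, ← pow_add]
      congr 2
  have h2 : s ∣ i * orderOf σ := by
    rw [hs, ← FiniteField.orderOf_frobeniusAlgHom (ZMod p) F]
    refine orderOf_dvd_of_pow_eq_one ?_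
    ext x
    rw [AlgHom.coe_pow, FiniteField.coe_frobeniusAlgHom, pow_iterate, ZMod.card]
    have h3 := h1 (orderOf σ) x
    rw [pow_orderOf_eq_one] at h3
    exact h3.symm
  rcases Nat.eq_zero_or_pos i with rfl | hi0
  · refine ⟨s, 1, 0, hs0, odd_one, by rw [hcard, pow_one], fun x => ?_⟩
    rw [mul_zero]
    exact hi' x
  · obtain ⟨n, hn⟩ := Nat.gcd_dvd_left s i
    obtain ⟨k, hk⟩ := Nat.gcd_dvd_right s i
    have hg : 0 < Nat.gcd s i := Nat.gcd_pos_of_pos_left _ hs0
    refine ⟨Nat.gcd s i, n, k, hg, ?_, ?_, ?_⟩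
    · have hnk : Nat.Coprime n k := by
        have h3 : n = s / Nat.gcd s i := (Nat.div_eq_of_eq_mul_right hg hn).symm
        have h4 : k = i / Nat.gcd s i := (Nat.div_eq_of_eq_mul_right hg hk).symm
        rw [h3, h4]
        exact Nat.coprime_div_gcd_div_gcd hg
      have h3 : n ∣ k * orderOf σ := by
        have h4 : Nat.gcd s i * n ∣ Nat.gcd s i * (k * orderOf σ) := by
          rw [← hn, ← mul_assoc, ← hk]
          exact h2
        exact Nat.dvd_of_mul_dvd_mul_left hg h4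
      exact hσ.of_dvd_nat (hnk.dvd_of_dvd_mul_left h3)
    · rw [hcard, ← pow_mul, ← hn]
    · intro x
      rw [← hk]
      exact hi' x

end Sigma

section Eig

variable {F V : Type*} [Field F] [AddCommGroup V] [Module F V] [FiniteDimensional F V]
variable {K : Type*} [Field K] [Algebra F K]

/-- `μ` is an eigenvalue of `T` -/
def Eig (T : End F V) (μ : K) : Prop := ∃ v, v ≠ 0 ∧ aeval T (minpoly F μ) v = 0

omit [FiniteDimensional F V] in
theorem Eig.pow {T : End F V} {μ : K} (h : Eig T μ) (c : ℕ) : Eig (T ^ c) (μ ^ c) := by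
  obtain ⟨v, hv0, hv⟩ := h
  refine ⟨v, hv0, ?_⟩
  obtain ⟨k, hk⟩ : minpoly F μ ∣ (minpoly F (μ ^ c)).comp (X ^ c) := by
    refine minpoly.dvd F μ ?_
    rw [aeval_comp, map_pow, aeval_X, minpoly.aeval]
  have h1 : aeval (T ^ c) (minpoly F (μ ^ c)) = aeval T ((minpoly F (μ ^ c)).comp (X ^ c)) := by
    rw [aeval_comp, map_pow, aeval_X]
  rw [h1, hk, mul_comm, map_mul, Module.End.mul_apply, hv, map_zero]

omit [FiniteDimensional F V] in
theorem Eig.dvd [Algebra.IsAlgebraic F K] {T : End F V} {μ : K} (h : Eig T μ) {g : F[X]} (hg : aeval T g = 0) :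
    aeval μ g = 0 := by
  obtain ⟨v, hv0, hv⟩ := h
  have hirr := minpoly.irreducible (Algebra.IsIntegral.isIntegral (R := F) μ)
  by_contra hcon
  have h1 : ¬ minpoly F μ ∣ g := fun h => by
    obtain ⟨k, rfl⟩ := h
    rw [map_mul, minpoly.aeval, zero_mul] at hcon
    exact hcon rfl
  obtain ⟨a, b, hab⟩ := hirr.coprime_iff_not_dvd.2 h1
  have h3 : aeval T (a * minpoly F μ + b * g) v = v := by
    rw [hab, map_one, Module.End.one_apply]
  rw [map_add, LinearMap.add_apply, map_mul, map_mul, Module.End.mul_apply, Module.End.mul_apply, hv, map_zero,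
    zero_add, hg, LinearMap.zero_apply, map_zero] at h3
  exact hv0 h3.symm

omit [FiniteDimensional F V] in
theorem Eig.pow_eq_one [Algebra.IsAlgebraic F K] {T : V ≃ₗ[F] V} {μ : K} (h : Eig (T : V →ₗ[F] V) μ) {N : ℕ}
    (hN : T ^ N = 1) : μ ^ N = 1 := by
  have h1 := h.dvd (g := X ^ N - 1) (by
    ext x
    rw [map_sub, map_pow, aeval_X, map_one, LinearMap.sub_apply, end_pow_apply, hN,
      Module.End.one_apply, show (1 : V ≃ₗ[F] V) x = x from rfl, sub_self, LinearMap.zero_apply])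
  rwa [map_sub, map_pow, aeval_X, map_one, sub_eq_zero] at h1

/-- an irreducible factor of the characteristic polynomial -/
theorem exists_ker {T : End F V} {f : F[X]} (hf : Irreducible f) (hd : f ∣ LinearMap.charpoly T) :
    ∃ v, v ≠ 0 ∧ aeval T f v = 0 := by
  classical
  let K := AlgebraicClosure F
  let b := Module.finBasis F V
  let M := LinearMap.toMatrixAlgEquiv b T
  have hM : M.charpoly = LinearMap.charpoly T := LinearMap.charpoly_toMatrix T b
  obtain ⟨μ, hμ⟩ := IsAlgClosed.exists_aeval_eq_zero K f (degree_pos_of_irreducible hf).ne'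
  have h1 : (M.map (algebraMap F K)).charpoly.IsRoot μ := by
    rw [Matrix.charpoly_map, hM, IsRoot.def, eval_map_algebraMap]
    obtain ⟨g, hg⟩ := hd
    rw [hg, map_mul, hμ, zero_mul]
  have h2 : ∃ w, w ≠ 0 ∧ (Matrix.scalar _ μ - M.map (algebraMap F K)).mulVec w = 0 := by
    rw [Matrix.exists_mulVec_eq_zero_iff, ← Matrix.eval_charpoly]
    exact h1
  obtain ⟨w, hw0, hw⟩ := h2
  have h3 : (M.map (algebraMap F K)).mulVec w = μ • w := by
    rw [Matrix.sub_mulVec, sub_eq_zero] at hw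
    rw [← hw]
    ext i
    simp [Matrix.mulVec_diagonal]
  let TK : End K (_ → K) := Matrix.toLinAlgEquiv' (M.map (algebraMap F K))
  have h4 : TK.HasEigenvector μ w := by
    refine ⟨?_, hw0⟩
    rw [Module.End.mem_eigenspace_iff]
    exact h3
  have h5 : aeval TK (f.map (algebraMap F K)) w = 0 := by
    rw [Module.End.aeval_apply_of_hasEigenvector h4, eval_map_algebraMap, hμ, zero_smul]
  have h6 : ((aeval M f).map (algebraMap F K)).mulVec w = 0 := by
    rw [MP.aeval_map]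
    have h7 : aeval TK (f.map (algebraMap F K)) =
        Matrix.toLinAlgEquiv' (aeval (M.map (algebraMap F K)) (f.map (algebraMap F K))) :=
      aeval_algHom_apply (Matrix.toLinAlgEquiv' (R := K)).toAlgHom _ _
    rw [h7] at h5
    exact h5
  have h7 : (aeval M f).det = 0 := by
    have h8 : ((aeval M f).map (algebraMap F K)).det = 0 := Matrix.exists_mulVec_eq_zero_iff.1 ⟨w, hw0, h6⟩
    have h9 : algebraMap F K (aeval M f).det = 0 := by
      rw [RingHom.map_det]
      exact h8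
    exact (map_eq_zero _).1 h9
  have h8 : LinearMap.det (aeval T f) = 0 := by
    rw [← LinearMap.det_toMatrix b]
    have h9 : LinearMap.toMatrix b b (aeval T f) = aeval M f :=
      (aeval_algHom_apply (LinearMap.toMatrixAlgEquiv b).toAlgHom T f).symm
    rw [h9, h7]
  have h9 : LinearMap.ker (aeval T f) ≠ ⊥ := by
    intro h
    have h10 := LinearMap.bot_lt_ker_of_det_eq_zero h8
    rw [h] at h10
    exact lt_irrefl _ h10
  obtain ⟨v, hv, hv0⟩ := (Submodule.ne_bot_iff _).1 h9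
  exact ⟨v, hv0, hv⟩

end Eig

section Main

variable {F V : Type*} [Field F] [Finite F] [AddCommGroup V] [Module F V] [FiniteDimensional F V]
  {p : ℕ} [Fact p.Prime] [CharP F p] {H : Type*} [Group H] [Finite H]

theorem mem_pCore_of_aeval (hcop : ¬ p ∣ Nat.card H) (ρ : H →* (V ≃ₗ[F] V)) (hρ : Function.Injective ρ) {l : ℕ}
    [Fact l.Prime] {x : H} {a b : ℕ} {P : F[X]} (hP : P ≠ 0) (h0 : aeval (ρ x : V →ₗ[F] V) P = 0)
    (hx : x ^ l ^ b = 1) (hdeg : P.natDegree ≤ l ^ a) : x ^ l ^ a ∈ Cfsg.pCore l H := by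
  classical
  let bs := Module.finBasis F V
  let f : H →* Matrix (Fin (finrank F V)) (Fin (finrank F V)) F :=
    ((LinearMap.toMatrixAlgEquiv bs).toAlgHom.toRingHom.toMonoidHom).comp
      ((LinearEquiv.automorphismGroup.toLinearMapMonoidHom).comp ρ)
  refine poly_one hcop f.toHomUnits ?_ hP ?_ hx hdeg
  · intro x y hxy
    apply hρ
    have h1 : f x = f y := congrArg Units.val hxy
    have h2 : (ρ x : V →ₗ[F] V) = (ρ y : V →ₗ[F] V) := (LinearMap.toMatrixAlgEquiv bs).injective h1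
    exact LinearEquiv.toLinearMap_injective h2
  · have h1 := aeval_algHom_apply (LinearMap.toMatrixAlgEquiv bs).toAlgHom (ρ x : V →ₗ[F] V) P
    rw [h0, map_zero] at h1
    exact h1

/-- the situation of a Hall subgroup -/
structure Sit (p : ℕ) (B : V →ₗ[F] V →ₗ[F] F) (ρ : H →* (V ≃ₗ[F] V)) : Prop where
  two : (2 : F) ≠ 0
  symm : ∀ u v, B u v = B v u
  nondeg : ∀ v, (∀ u, B v u = 0) → v = 0
  dim : 3 ≤ finrank F V
  inj : Function.Injective ρ
  iso : ∀ h u v, B (ρ h u) (ρ h v) = B u v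
  cop : ¬ p ∣ Nat.card H
  three : 3 ∣ Nat.card H
  hall : ∀ r : ℕ, r.Prime → r ≠ 2 → r ∣ Nat.card H → ∀ y : V ≃ₗ[F] V, (∀ u v, B (y u) (y v) = B u v) →
    (∃ k : ℕ, y ^ r ^ k = 1) → ∃ (g : V ≃ₗ[F] V) (h : H), ρ h = g * y * g⁻¹
  core : ∀ r : ℕ, r.Prime → r ≠ 2 → Cfsg.pCore r H = ⊥

variable {B : V →ₗ[F] V →ₗ[F] F} {ρ : H →* (V ≃ₗ[F] V)}

theorem pow_eq_one_conj {G : Type*} [Group G] {g y : G} {n : ℕ} : (g * y * g⁻¹) ^ n = 1 ↔ y ^ n = 1 := by
  rw [conj_pow, mul_inv_eq_one, mul_eq_left]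

/-- the polynomial test -/
theorem Sit.poly (S : Sit p B ρ) {r : ℕ} (hr : r.Prime) (hr2 : r ≠ 2) (hrH : r ∣ Nat.card H) {y : V ≃ₗ[F] V}
    (hy : ∀ u v, B (y u) (y v) = B u v) {b : ℕ} (hyb : y ^ r ^ b = 1) {P : F[X]} (hP : P ≠ 0)
    (h0 : aeval (y : V →ₗ[F] V) P = 0) (hdeg : P.natDegree ≤ r) : y ^ r = 1 := by
  have _ : Fact r.Prime := ⟨hr⟩
  obtain ⟨g, h, hg⟩ := S.hall r hr hr2 hrH y hy ⟨b, hyb⟩
  have h1 : h ^ r ^ b = 1 := by
    apply S.inj
    rw [map_pow, map_one, hg, pow_eq_one_conj, hyb]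
  have h2 : aeval (ρ h : V →ₗ[F] V) P = 0 := by
    rw [hg]
    have h3 : ((g * y * g⁻¹ : V ≃ₗ[F] V) : V →ₗ[F] V) = g.conjAlgEquiv F (y : V →ₗ[F] V) := by
      ext v
      rfl
    have h4 := aeval_algHom_apply (g.conjAlgEquiv F).toAlgHom (y : V →ₗ[F] V) P
    rw [h0, map_zero] at h4
    rw [h3]
    exact h4
  have h3 := mem_pCore_of_aeval S.cop ρ S.inj (a := 1) hP h2 h1 (by rwa [pow_one])
  rw [S.core r hr hr2, Subgroup.mem_bot, pow_one] at h3
  have h4 : (ρ h) ^ r = 1 := by rw [← map_pow, h3, map_one]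
  rwa [hg, pow_eq_one_conj] at h4

/-- the Feit-Thompson test -/
theorem Sit.small (S : Sit p B ρ) {r : ℕ} (hr : r.Prime) (hr2 : r ≠ 2) (hrH : r ∣ Nat.card H) {y : V ≃ₗ[F] V}
    (hy : ∀ u v, B (y u) (y v) = B u v) (hyr : y ^ r = 1)
    (hd : 4 * finrank F (LinearMap.range ((y : V →ₗ[F] V) - LinearMap.id)) + 1 < r) : y = 1 := by
  have _ : Fact r.Prime := ⟨hr⟩
  obtain ⟨g, h, hg⟩ := S.hall r hr hr2 hrH y hy ⟨1, by rwa [pow_one]⟩
  have h1 : h ^ r = 1 := by
    apply S.inj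
    rw [map_pow, map_one, hg, pow_eq_one_conj, hyr]
  have h2 : finrank F (comSp ρ h) = finrank F (LinearMap.range ((y : V →ₗ[F] V) - LinearMap.id)) := by
    have h3 := finrank_comSp_conj (MonoidHom.id (V ≃ₗ[F] V)) g y
    rw [← hg] at h3
    exact h3
  have h3 := mem_pCore S.cop ρ S.inj h1 (by rw [h2]; exact hd)
  rw [S.core r hr hr2, Subgroup.mem_bot] at h3
  have h4 : (ρ h) ^ 1 = 1 := by rw [h3, map_one, one_pow]
  rw [hg, pow_eq_one_conj, pow_one] at h4
  exact h4

omit [Finite F] [FiniteDimensional F V] [Finite H] in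
theorem orderOf_dvd_card {K : Type*} [Field K] [Algebra F K] [Algebra.IsAlgebraic F K] {h : H} {μ : Kˣ}
    (hE : Eig (ρ h : V →ₗ[F] V) (μ : K)) : orderOf μ ∣ Nat.card H := by
  have h1 : (μ : K) ^ Nat.card H = 1 := hE.pow_eq_one (by rw [← map_pow, pow_card_eq_one', map_one])
  exact orderOf_dvd_of_pow_eq_one (Units.ext (by rw [Units.val_pow_eq_pow_val, h1, Units.val_one]))

omit [Finite H] in
/-- an isometry with a given eigenvalue -/
theorem Sit.exists_y (S : Sit p B ρ) {K : Type*} [Field K] [Algebra F K] [Algebra.IsAlgebraic F K] {h : H} {μ : Kˣ}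
    (hE : Eig (ρ h : V →ₗ[F] V) (μ : K)) {r c : ℕ} (hr : r.Prime) (hr2 : r ≠ 2) (ho : orderOf μ = r ^ c) :
    ∃ (y : V ≃ₗ[F] V) (P : F[X]), (∀ u v, B (y u) (y v) = B u v) ∧ y ^ r ^ c = 1 ∧ Eig (y : V →ₗ[F] V) (μ : K) ∧
      P ≠ 0 ∧ aeval (y : V →ₗ[F] V) P = 0 ∧
      ((P.natDegree ≤ 1 + (minpoly F (μ : K)).natDegree ∧
        finrank F (LinearMap.range ((y : V →ₗ[F] V) - LinearMap.id)) ≤ (minpoly F (μ : K)).natDegree) ∨
      (Odd (minpoly F (μ : K)).natDegree ∧ P.natDegree ≤ 1 + 2 * (minpoly F (μ : K)).natDegree ∧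
        finrank F (LinearMap.range ((y : V →ₗ[F] V) - LinearMap.id)) ≤ 2 * (minpoly F (μ : K)).natDegree)) := by
  have hint := Algebra.IsIntegral.isIntegral (R := F) (μ : K)
  have hirr := minpoly.irreducible hint
  have hm := minpoly.monic hint
  set f := minpoly F (μ : K) with hf
  obtain ⟨v, hv0, hv⟩ := hE
  have hN : ((orderOf h : ℕ) : F) ≠ 0 := fun h1 => S.cop
    (((CharP.cast_eq_zero_iff F p _).1 h1).trans (orderOf_dvd_natCard h))
  have hM : f ∣ X ^ r ^ c - 1 := by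
    refine minpoly.dvd F (μ : K) ?_
    rw [map_sub, map_pow, aeval_X, map_one, ← Units.val_pow_eq_pow_val, ← ho, pow_orderOf_eq_one, Units.val_one,
      sub_self]
  obtain ⟨y, hy1, hy2, hy3, hy4⟩ := exists_small S.two S.symm S.nondeg (T := ρ h) (S.iso h) hN
    (by rw [← map_pow, pow_orderOf_eq_one, map_one]) hirr hm hM hv0 hv
  have hX : (X - 1 : F[X]) ≠ 0 := by
    rw [← C_1]
    exact X_sub_C_ne_zero 1
  have hX1 : (X - 1 : F[X]).natDegree = 1 := by
    rw [← C_1]
    exact natDegree_X_sub_C 1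
  rcases hy4 with ⟨h1, h2⟩ | ⟨h0, h1, h2⟩
  · refine ⟨y, (X - 1) * f, hy1, hy2, hy3, mul_ne_zero hX hm.ne_zero, h1, Or.inl ⟨?_, h2⟩⟩
    refine natDegree_mul_le.trans ?_
    rw [hX1]
  · refine ⟨y, (X - 1) * (f * rv f), hy1, hy2, hy3, mul_ne_zero hX (mul_ne_zero hm.ne_zero (rv_ne_zero hm.ne_zero)),
      h1, Or.inr ⟨?_, ?_, h2⟩⟩
    · rw [← Nat.not_even_iff_odd]
      intro he
      apply h0
      refine minpoly.dvd F (μ : K) ?_
      rw [aeval_rv (y := ((μ⁻¹ : Kˣ) : K)) (Units.mul_inv μ),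
        root_inv (p := p) hirr (minpoly.aeval F (μ : K)) hr hr2 ho he, mul_zero]
    · refine natDegree_mul_le.trans ?_
      rw [hX1]
      have h3 := natDegree_mul_le (p := f) (q := rv f)
      have h4 := natDegree_rv_le f
      omega

/-- the key: the eigenvalues generate extensions of degree prime to `n` -/
theorem Sit.coprime (S : Sit p B ρ) {K : Type*} [Field K] [Algebra F K] [Algebra.IsAlgebraic F K] {h : H} {μ : Kˣ}
    (hE : Eig (ρ h : V →ₗ[F] V) (μ : K)) {g n : ℕ} (hq : Nat.card F = (p ^ g) ^ n) (hn : Odd n) :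
    Nat.Coprime (orderOf ((p ^ g : ℕ) : ZMod (orderOf μ))) n := by
  have hmH := orderOf_dvd_card hE
  have hp : p.Prime := Fact.out
  have hm0 : orderOf μ ≠ 0 := fun h0 => by
    rw [h0, zero_dvd_iff] at hmH
    exact Nat.card_pos.ne' hmH
  have hcopH : ∀ d, d ∣ Nat.card H → (p ^ g).Coprime d := fun d hd =>
    Nat.Coprime.pow_left g ((Nat.Prime.coprime_iff_not_dvd hp).2 fun h1 => S.cop (h1.trans hd))
  by_contra hcon
  obtain ⟨ℓ, hℓ, hℓ1, hℓ2⟩ := Nat.Prime.not_coprime_iff_dvd.1 hcon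
  have hℓn2 : ℓ ≠ 2 := by
    rintro rfl
    exact (Nat.not_even_iff_odd.2 hn) (even_iff_two_dvd.2 hℓ2)
  -- three does not divide `n`
  have hn3 : ¬ 3 ∣ n := by
    rintro ⟨n', rfl⟩
    have h3F : (3 : F) ≠ 0 := by
      intro h1
      apply S.cop
      have h2 : ((3 : ℕ) : F) = 0 := by exact_mod_cast h1
      exact ((CharP.cast_eq_zero_iff F p _).1 h2).trans S.three
    have h1 : ((p ^ g) ^ n') ^ 2 ≡ 1 [MOD 3] := by
      have h2 := hcopH 3 S.three
      exact modEq_of_dvd (orderOf_dvd_sub_one Nat.prime_three (h2.pow_left n'))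
    have h2 : Nat.card F ^ 2 ≡ 1 [MOD 9] := by
      have h3 := modEq_pow_prime_pow h1 1
      rw [hq]
      have h4 : ((p ^ g) ^ (3 * n')) ^ 2 = (((p ^ g) ^ n') ^ 2) ^ 3 ^ 1 := by
        generalize p ^ g = a
        ring
      rw [h4]
      exact h3
    obtain ⟨y, hy, hy9, hy3, P, hP, hPd, hPy⟩ := exists_nine S.two h3F S.symm S.nondeg S.dim h2
    exact hy3 (S.poly Nat.prime_three (by norm_num) S.three hy (b := 2) (by norm_num; exact hy9) hP hPy hPd)
  have hℓ5 : 5 ≤ ℓ := by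
    by_contra h5
    have h6 := hℓ.two_le
    interval_cases ℓ
    · exact hℓn2 rfl
    · exact hn3 hℓ2
    · exact absurd hℓ (by decide)
  obtain ⟨r, b, hr, hb, hrm, hℓr⟩ := exists_prime_pow hℓ hm0 (hcopH _ hmH) hℓ1
  have hrm1 : r ∣ orderOf μ := (dvd_pow_self r (by omega)).trans hrm
  have hrH : r ∣ Nat.card H := hrm1.trans hmH
  have hfin : ∀ c, c ≤ b → ∃ (h' : H) (ν : Kˣ), Eig (ρ h' : V →ₗ[F] V) (ν : K) ∧ orderOf ν = r ^ c := by
    intro c hc
    have hd : r ^ c ∣ orderOf μ := (pow_dvd_pow r hc).trans hrm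
    refine ⟨h ^ (orderOf μ / r ^ c), μ ^ (orderOf μ / r ^ c), ?_, orderOf_pow_orderOf_div hm0 hd⟩
    have h1 := hE.pow (orderOf μ / r ^ c)
    rw [← Units.val_pow_eq_pow_val] at h1
    rw [map_pow]
    have h2 : ((ρ h ^ (orderOf μ / r ^ c) : V ≃ₗ[F] V) : V →ₗ[F] V) = (ρ h : V →ₗ[F] V) ^ (orderOf μ / r ^ c) :=
      map_pow (LinearEquiv.automorphismGroup.toLinearMapMonoidHom) _ _
    rw [h2]
    exact h1
  rcases dvd_or_eq hℓ hr hb hℓr with h1 | ⟨h1, h2⟩
  · -- `ℓ` divides the order of `q₀` modulo `r`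
    have hr1 : ℓ ∣ r - 1 := h1.trans (orderOf_dvd_sub_one hr (hcopH r hrH))
    have hrpos : 0 < r - 1 := by have := hr.two_le; omega
    have hr5 : 5 < r := by
      have := Nat.le_of_dvd hrpos hr1
      omega
    obtain ⟨h', ν, hE', ho⟩ := hfin 1 hb
    obtain ⟨y, P, hy1, hy2, hy3, -, -, hy6⟩ := S.exists_y hE' hr (by omega) ho
    rw [pow_one] at hy2 ho
    have h3 : (minpoly F (ν : K)).natDegree * ℓ ∣ r - 1 :=
      natDegree_mul_dvd (minpoly.irreducible (Algebra.IsIntegral.isIntegral (R := F) (ν : K)))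
        (minpoly.aeval F (ν : K)) hq hℓ2 h1 hr (hcopH r hrH) ho
    set e := (minpoly F (ν : K)).natDegree with he
    have he1 : 0 < e := minpoly.natDegree_pos (Algebra.IsIntegral.isIntegral (R := F) (ν : K))
    have h4 := Nat.le_of_dvd hrpos h3
    have h4' : e * 5 ≤ e * ℓ := Nat.mul_le_mul_left e hℓ5
    have hy : y = 1 := by
      refine S.small hr (by omega) hrH hy1 hy2 ?_
      rcases hy6 with ⟨-, h5⟩ | ⟨h5, -, h6⟩
      · omega
      · have h7 : 2 * (e * ℓ) ∣ r - 1 := by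
          refine Nat.Coprime.mul_dvd_of_dvd_of_dvd ?_ ?_ h3
          · rw [Nat.coprime_two_left]
            exact h5.mul (hℓ.odd_of_ne_two hℓn2)
          · exact (hr.even_sub_one (by omega)).two_dvd
        have h8 := Nat.le_of_dvd hrpos h7
        omega
    have h5 : (ν : K) ^ 1 = 1 := hy3.pow_eq_one (by rw [pow_one, hy])
    rw [pow_one, Units.val_eq_one] at h5
    rw [h5, orderOf_one] at ho
    omega
  · -- `ℓ = r` divides `n`
    subst h1
    obtain ⟨h', ν, hE', ho⟩ := hfin 2 h2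
    obtain ⟨y, P, hy1, hy2, hy3, hy4, hy5, hy6⟩ := S.exists_y hE' hr hℓn2 ho
    have h3 : (minpoly F (ν : K)).natDegree ∣ ℓ - 1 :=
      natDegree_dvd_sub_one (minpoly.irreducible (Algebra.IsIntegral.isIntegral (R := F) (ν : K)))
        (minpoly.aeval F (ν : K)) hq hℓ2 hr (hcopH ℓ hrH) ho
    set e := (minpoly F (ν : K)).natDegree with he
    have hpos : 0 < ℓ - 1 := by omega
    have h4 := Nat.le_of_dvd hpos h3
    have hy : y ^ ℓ = 1 := by
      refine S.poly hr hℓn2 hrH hy1 hy2 hy4 hy5 ?_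
      rcases hy6 with ⟨h5, -⟩ | ⟨h5, h6, -⟩
      · omega
      · have h7 : 2 * e ∣ ℓ - 1 := by
          refine Nat.Coprime.mul_dvd_of_dvd_of_dvd ?_ ?_ h3
          · rw [Nat.coprime_two_left]
            exact h5
          · exact (hr.even_sub_one hℓn2).two_dvd
        have h8 := Nat.le_of_dvd hpos h7
        omega
    have h5 : (ν : K) ^ ℓ = 1 := hy3.pow_eq_one hy
    have h6 : orderOf ν ∣ ℓ := orderOf_dvd_of_pow_eq_one (Units.ext (by rw [Units.val_pow_eq_pow_val, h5, Units.val_one]))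
    rw [ho] at h6
    have h7 := Nat.le_of_dvd (by omega) h6
    nlinarith

theorem pow_modEq_pow {q m a b : ℕ} (h : a ≡ b [MOD orderOf ((q : ℕ) : ZMod m)]) : q ^ a ≡ q ^ b [MOD m] := by
  rw [← ZMod.natCast_eq_natCast_iff, Nat.cast_pow, Nat.cast_pow, ← pow_mod_orderOf _ a, h, pow_mod_orderOf]

/-- **Characteristic polynomials of the elements of `H` are fixed by field automorphisms of odd order.** -/
theorem Sit.charpoly_map (S : Sit p B ρ) (σ : F ≃+* F) (hσ : Odd (orderOf σ)) (h : H) :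
    (LinearMap.charpoly (ρ h : V →ₗ[F] V)).map (σ : F →+* F) = LinearMap.charpoly (ρ h : V →ₗ[F] V) := by
  classical
  obtain ⟨g, n, k, hg, hn, hq, hσx⟩ := exists_sigma (p := p) σ hσ
  let K := AlgebraicClosure F
  have hmonic : (LinearMap.charpoly (ρ h : V →ₗ[F] V)).Monic := LinearMap.charpoly_monic _
  have hfac : ∀ f ∈ UniqueFactorizationMonoid.normalizedFactors (LinearMap.charpoly (ρ h : V →ₗ[F] V)),
      f.map (σ : F →+* F) = f := by
    intro f hf
    have hirr := UniqueFactorizationMonoid.irreducible_of_normalized_factor f hf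
    have hdvd := UniqueFactorizationMonoid.dvd_of_mem_normalizedFactors hf
    have hfm : f.Monic := by
      have h1 := UniqueFactorizationMonoid.normalize_normalized_factor f hf
      rw [← h1]
      exact monic_normalize hirr.ne_zero
    obtain ⟨μ, hμ⟩ := IsAlgClosed.exists_aeval_eq_zero K f (degree_pos_of_irreducible hirr).ne'
    have hfmin : f = minpoly F μ := minpoly.eq_of_irreducible_of_monic hirr hμ hfm
    have hE : Eig (ρ h : V →ₗ[F] V) μ := by
      obtain ⟨v, hv0, hv⟩ := exists_ker hirr hdvd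
      exact ⟨v, hv0, by rw [← hfmin]; exact hv⟩
    have hμN : μ ^ Nat.card H = 1 := hE.pow_eq_one (by rw [← map_pow, pow_card_eq_one', map_one])
    have hμ0 : μ ≠ 0 := by
      rintro rfl
      rw [zero_pow Nat.card_pos.ne'] at hμN
      exact zero_ne_one hμN
    let ν : Kˣ := Units.mk0 μ hμ0
    have hcop := S.coprime (h := h) (μ := ν) hE hq hn
    obtain ⟨j, hj⟩ : ∃ j, n * j ≡ k [MOD orderOf ((p ^ g : ℕ) : ZMod (orderOf ν))] := by
      by_cases h0 : orderOf ((p ^ g : ℕ) : ZMod (orderOf ν)) = 0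
      · rw [h0, Nat.coprime_zero_left] at hcop
        exact ⟨k, by rw [hcop, one_mul]⟩
      · obtain ⟨j, -, hj⟩ := Nat.exists_mul_mod_eq_of_coprime k hcop.symm h0
        exact ⟨j, hj⟩
    refine map_eq (p := p) hirr hfm (t := g * k) hσx (μ := ν) hμ (j := j) ?_
    rw [pow_eq_pow_iff_modEq, hq, ← pow_mul (p ^ g) n j, pow_mul p g k]
    exact (pow_modEq_pow hj).symm
  have hprod := UniqueFactorizationMonoid.prod_normalizedFactors_eq hmonic.ne_zero
  rw [hmonic.normalize_eq_self] at hprod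
  rw [← hprod, Polynomial.map_multiset_prod]
  congr 1
  conv_rhs => rw [← Multiset.map_id (UniqueFactorizationMonoid.normalizedFactors (LinearMap.charpoly (ρ h : V →ₗ[F] V)))]
  exact Multiset.map_congr rfl fun f hf => hfac f hf

theorem Sit.trace_map (S : Sit p B ρ) (σ : F ≃+* F) (hσ : Odd (orderOf σ)) (h : H) :
    σ (LinearMap.trace F V (ρ h : V →ₗ[F] V)) = LinearMap.trace F V (ρ h : V →ₗ[F] V) := by
  classical
  let b := Module.finBasis F V
  rw [LinearMap.trace_eq_matrix_trace F b, Matrix.trace_eq_neg_charpoly_nextCoeff, LinearMap.charpoly_toMatrix, map_neg]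
  congr 1
  have h1 := S.charpoly_map σ hσ h
  have h2 := nextCoeff_map (f := (σ : F →+* F)) σ.injective (LinearMap.charpoly (ρ h : V →ₗ[F] V))
  rw [h1] at h2
  exact h2.symm

end Main

end Cfsg.Agent.H340.RV
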